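import Mathlib

/-!
# Block monomial matrices (S4547)

`bm x π`, `x : ι → Matrix κ κ R`, `π : Perm ι`: the block monomial matrix on `κ × ι`.
-/

set_option autoImplicit false

namespace Cfsg.Agent.H466.K547

open Equiv Matrix

section

variable {κ ι R : Type*} [DecidableEq ι]

/-- block monomial matrix -/
def bm [Zero R] (x : ι → Matrix κ κ R) (π : Perm ι) : Matrix (κ × ι) (κ × ι) R :=
  Matrix.of fun a b => if a.2 = π b.2 then x a.2 a.1 b.1 else 0

theorem bm_apply [Zero R] (x : ι → Matrix κ κ R) (π : Perm ι) (a b : κ × ι) :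
    bm x π a b = if a.2 = π b.2 then x a.2 a.1 b.1 else 0 := rfl

theorem bm_one [DecidableEq κ] [Zero R] [One R] : bm (fun _ => 1) 1 = (1 : Matrix (κ × ι) (κ × ι) R) := by
  ext a b
  have h0 : (1 : Matrix (κ × ι) (κ × ι) R) a b = if a = b then 1 else 0 := Matrix.one_apply
  have h1 : (1 : Matrix κ κ R) a.1 b.1 = if a.1 = b.1 then 1 else 0 := Matrix.one_apply
  rw [bm_apply, h0, h1, Perm.one_apply]
  by_cases h : a = b
  · subst h
    simp
  · rw [if_neg h]
    split_ifs with h1 h2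
    · exact absurd (Prod.ext h2 h1) h
    · rfl
    · rfl

theorem bm_mul [Fintype κ] [Fintype ι] [NonUnitalNonAssocSemiring R] (x y : ι → Matrix κ κ R) (π ρ : Perm ι) :
    bm x π * bm y ρ = bm (fun k => x k * y (π⁻¹ k)) (π * ρ) := by
  ext a b
  rw [Matrix.mul_apply, Fintype.sum_prod_type, bm_apply]
  have h1 : ∀ c : κ, ∑ l : ι, bm x π a (c, l) * bm y ρ (c, l) b =
      if a.2 = (π * ρ) b.2 then x a.2 a.1 c * y (π⁻¹ a.2) c b.1 else 0 := by
    intro c
    rw [Finset.sum_eq_single (π⁻¹ a.2)]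
    · rw [bm_apply, bm_apply]
      have h4 : a.2 = π (π⁻¹ a.2) := by simp
      have h2 : (π⁻¹ a.2 = ρ b.2) ↔ (a.2 = (π * ρ) b.2) := by
        rw [Perm.inv_eq_iff_eq, Perm.mul_apply]
      simp only
      rw [if_pos h4]
      by_cases h : a.2 = (π * ρ) b.2
      · rw [if_pos h, if_pos (h2.2 h)]
      · rw [if_neg h, if_neg (fun h3 => h (h2.1 h3)), mul_zero]
    · intro l _ hl
      rw [bm_apply, if_neg, zero_mul]
      intro h
      apply hl
      change a.2 = π l at h
      rw [h]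
      simp
    · exact fun h => absurd (Finset.mem_univ _) h
  simp only [h1]
  split_ifs
  · rw [Matrix.mul_apply]
  · exact Finset.sum_const_zero

theorem bm_star [AddMonoid R] [StarAddMonoid R] (x : ι → Matrix κ κ R) (π : Perm ι) :
    star (bm x π) = bm (fun k => star (x (π k))) π⁻¹ := by
  ext a b
  rw [Matrix.star_apply, bm_apply, bm_apply]
  have h2 : (a.2 = π⁻¹ b.2) ↔ (b.2 = π a.2) := by
    rw [Perm.eq_inv_iff_eq, eq_comm]
  by_cases h : b.2 = π a.2
  · rw [if_pos h, if_pos (h2.2 h), Matrix.star_apply, ← h]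
  · rw [if_neg h, if_neg (fun h3 => h (h2.1 h3)), star_zero]

theorem bm_star_mul [Fintype κ] [Fintype ι] [DecidableEq κ] [Ring R] [StarRing R] {x : ι → Matrix κ κ R}
    (h : ∀ k, star (x k) * x k = 1) (π : Perm ι) : star (bm x π) * bm x π = 1 := by
  rw [bm_star, bm_mul, inv_mul_cancel, inv_inv]
  have h1 : (fun k => star (x (π k)) * x (π k)) = fun _ => 1 := funext fun k => h _
  rw [h1, bm_one]

theorem bm_scalar [DecidableEq κ] [Nonempty κ] [Semiring R] [Nontrivial R] {x : ι → Matrix κ κ R} {π : Perm ι} {c : R}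
    (hc : c ≠ 0) (h : bm x π = c • (1 : Matrix (κ × ι) (κ × ι) R)) :
    π = 1 ∧ ∀ k, x k = c • (1 : Matrix κ κ R) := by
  have h1 : π = 1 := by
    ext k
    obtain ⟨a⟩ := ‹Nonempty κ›
    have h2 := congrFun (congrFun h (a, k)) (a, k)
    rw [bm_apply, Matrix.smul_apply, Matrix.one_apply_eq, smul_eq_mul, mul_one] at h2
    by_contra hk
    rw [if_neg (fun h3 => hk h3.symm)] at h2
    exact hc h2.symm
  refine ⟨h1, fun k => ?_⟩
  subst h1
  ext a b
  have h2 := congrFun (congrFun h (a, k)) (b, k)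
  rw [bm_apply, Matrix.smul_apply] at h2
  simp only [Perm.one_apply, if_true] at h2
  rw [h2, Matrix.smul_apply, Matrix.one_apply, Matrix.one_apply]
  congr 1
  simp

theorem bm_det [Fintype κ] [Fintype ι] [DecidableEq κ] [CommRing R] (x : ι → Matrix κ κ R) (π : Perm ι) :
    (bm x π).det = (∏ k, (x k).det) * ((Perm.sign π : ℤˣ) ^ Fintype.card κ : ℤˣ) := by
  have h1 : bm x π = (Matrix.blockDiagonal x).submatrix id (Equiv.prodCongrRight (fun _ : κ => π)) := by
    ext a b
    rw [bm_apply, Matrix.submatrix_apply, Matrix.blockDiagonal_apply]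
    rfl
  rw [h1, Matrix.det_permute', Matrix.det_blockDiagonal, Perm.sign_prodCongrRight, mul_comm]
  simp

end

end Cfsg.Agent.H466.K547
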