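import Cfsg.Agent.H821.K547.Defs

/-!
# `D3` from a homomorphism on a subgroup of odd index (S4547)
-/

set_option autoImplicit false

namespace Cfsg.Agent.H466.K547

open Subgroup Cfsg.Agent.H821.K547

universe u

theorem rk_congr {n : ℕ} {P Q : Type u} [Group P] [Group Q] (e : P ≃* Q) (h : Rk n P) : Rk n Q := by
  obtain ⟨f, hf⟩ := h
  exact ⟨f.comp e.symm.toMonoidHom, hf.comp e.symm.surjective⟩

/-- If `X → S` has image of odd index and `X` maps onto `C_2^3` with kernel containing the kernel of `X → S`, then the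
Sylow 2-subgroups of `S` map onto `C_2^3`. -/
theorem d3_of {S : Type u} [Group S] [Finite S] {X : Type*} [Group X] (Ψ : X →* S) (hodd : ¬ 2 ∣ Ψ.range.index)
    (F : X →* Multiplicative (Fin 3 → ZMod 2)) (hF : Function.Surjective F) (hker : ∀ x, Ψ x = 1 → F x = 1) :
    D3 S := by
  have hp : Fact (Nat.Prime 2) := ⟨Nat.prime_two⟩
  -- the map on the range
  let F1 : Ψ.range →* Multiplicative (Fin 3 → ZMod 2) :=
    MonoidHom.liftOfSurjective Ψ.rangeRestrict Ψ.rangeRestrict_surjective ⟨F, fun x hx => by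
      rw [MonoidHom.mem_ker] at hx ⊢
      exact hker x (congrArg Subtype.val hx)⟩
  have hF1 : ∀ x, F1 (Ψ.rangeRestrict x) = F x := fun x =>
    MonoidHom.liftOfRightInverse_comp_apply _ _ _ _ x
  have hF1s : Function.Surjective F1 := fun y => by
    obtain ⟨x, hx⟩ := hF y
    exact ⟨Ψ.rangeRestrict x, (hF1 x).trans hx⟩
  -- a Sylow subgroup of the range
  obtain ⟨R⟩ : Nonempty (Sylow 2 Ψ.range) := inferInstance
  have hR : ¬ 2 ∣ (R : Subgroup Ψ.range).index := R.not_dvd_index
  have hRs : Function.Surjective (F1.comp (R : Subgroup Ψ.range).subtype) := by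
    rw [← MonoidHom.range_eq_top, MonoidHom.range_comp, Subgroup.range_subtype]
    have h1 : ((R : Subgroup Ψ.range).map F1).index ∣ (R : Subgroup Ψ.range).index := index_map_dvd _ hF1s
    have h2 : ((R : Subgroup Ψ.range).map F1).index ∣ 2 ^ 3 := by
      have h3 := index_dvd_card ((R : Subgroup Ψ.range).map F1)
      have h4 : Nat.card (Multiplicative (Fin 3 → ZMod 2)) = 2 ^ 3 := by
        rw [Nat.card_eq_fintype_card]
        rfl
      rwa [h4] at h3
    obtain ⟨k, -, hk⟩ := (Nat.dvd_prime_pow Nat.prime_two).1 h2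
    rw [← index_eq_one, hk]
    rcases Nat.eq_zero_or_pos k with h0 | h0
    · rw [h0, pow_zero]
    · exfalso
      apply hR
      refine dvd_trans ?_ h1
      rw [hk]
      exact dvd_pow_self 2 h0.ne'
  -- it is a Sylow subgroup of `S`
  have hRp : IsPGroup 2 ((R : Subgroup Ψ.range).map Ψ.range.subtype) := R.isPGroup'.map _
  have hRi : ¬ 2 ∣ ((R : Subgroup Ψ.range).map Ψ.range.subtype).index := by
    rw [index_map_subtype]
    intro h
    rcases (Nat.prime_two.dvd_mul).1 h with h1 | h1
    · exact hR h1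
    · exact hodd h1
  let R' : Sylow 2 S := hRp.toSylow hRi
  intro Q
  have e1 : (R : Subgroup Ψ.range) ≃* (R' : Subgroup S) :=
    (R : Subgroup Ψ.range).equivMapOfInjective Ψ.range.subtype Ψ.range.subtype_injective
  have e2 : (R' : Subgroup S) ≃* (Q : Subgroup S) := Sylow.equiv R' Q
  obtain ⟨f, hf⟩ : ∃ f : (R : Subgroup Ψ.range) →* Multiplicative (Fin 3 → ZMod 2), Function.Surjective f :=
    ⟨F1.comp (R : Subgroup Ψ.range).subtype, hRs⟩
  exact ⟨f.comp (e1.trans e2).symm.toMonoidHom, hf.comp (e1.trans e2).symm.surjective⟩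

end Cfsg.Agent.H466.K547
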