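import Mathlib

/-!
# Wreath products `D ≀ T` and three homomorphisms onto `C_2` (S4547)

`W D T = (ι → D) ⋊ T` for `T ≤ Perm ι`; `detW det : W D T →* A`, the product of the determinants.

* `exists_chi`: for a nonabelian `2`-group `D` there is `χ : D → C_2`, trivial on scalars, nontrivial on `ker det`;
* `rk_full`: three homomorphisms on `W`; `rk_ker`: three homomorphisms on `ker detW`, trivial on scalars.
-/

set_option autoImplicit false

namespace Cfsg.Agent.H466.K547

open Equiv Subgroup

/-- the cyclic group of order two -/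
abbrev CC : Type := Multiplicative (ZMod 2)

/-- its generator -/
abbrev cg : CC := Multiplicative.ofAdd 1

theorem cc_cases (x : CC) : x = 1 ∨ x = cg := by
  revert x
  decide

theorem cg_ne : cg ≠ (1 : CC) := by decide

theorem cc_sq (x : CC) : x * x = 1 := by
  revert x
  decide

theorem cc_ne {x : CC} (h : x ≠ 1) : x = cg := (cc_cases x).resolve_left h

section homs

variable {G : Type*} [Group G]

/-- three homomorphisms with dual elements -/
theorem exists_rk3 (f : Fin 3 → G →* CC) (g : Fin 3 → G) (h : ∀ i j, f i (g j) = if i = j then cg else 1) :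
    ∃ F : G →* Multiplicative (Fin 3 → ZMod 2), Function.Surjective F ∧ ∀ x, (∀ i, f i x = 1) → F x = 1 := by
  refine ⟨⟨⟨fun x => Multiplicative.ofAdd (fun i => Multiplicative.toAdd (f i x)), ?_⟩, ?_⟩, ?_, ?_⟩
  · apply Multiplicative.toAdd.injective
    funext i
    change Multiplicative.toAdd (f i 1) = 0
    rw [map_one]
    rfl
  · intro x y
    apply Multiplicative.toAdd.injective
    funext i
    change Multiplicative.toAdd (f i (x * y)) = Multiplicative.toAdd (f i x) + Multiplicative.toAdd (f i y)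
    rw [map_mul]
    rfl
  · intro y
    refine ⟨g 0 ^ (Multiplicative.toAdd y 0).val * g 1 ^ (Multiplicative.toAdd y 1).val *
      g 2 ^ (Multiplicative.toAdd y 2).val, ?_⟩
    apply Multiplicative.toAdd.injective
    funext i
    have key : ∀ z : ZMod 2, cg ^ z.val = Multiplicative.ofAdd z := by decide
    have h2 : f i (g 0 ^ (Multiplicative.toAdd y 0).val * g 1 ^ (Multiplicative.toAdd y 1).val *
        g 2 ^ (Multiplicative.toAdd y 2).val) = Multiplicative.ofAdd (Multiplicative.toAdd y i) := by
      rw [map_mul, map_mul, map_pow, map_pow, map_pow, h, h, h]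
      fin_cases i <;> simp [key]
    exact congrArg Multiplicative.toAdd h2
  · intro x hx
    apply Multiplicative.toAdd.injective
    funext i
    change Multiplicative.toAdd (f i x) = 0
    rw [hx]
    rfl

open Classical in
/-- the homomorphism with a given kernel of index two -/
noncomputable def homOf (H : Subgroup G) (h : H.index = 2) : G →* CC where
  toFun g := if g ∈ H then 1 else cg
  map_one' := if_pos H.one_mem
  map_mul' a b := by
    have h1 := mul_mem_iff_of_index_two h (a := a) (b := b)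
    by_cases ha : a ∈ H <;> by_cases hb : b ∈ H <;> simp only [ha, hb, h1, if_true, if_false, iff_true,
      iff_false, not_true, mul_one, one_mul]
    decide

theorem homOf_eq_one {H : Subgroup G} {h : H.index = 2} {g : G} : homOf H h g = 1 ↔ g ∈ H := by
  constructor
  · intro h1
    by_contra h2
    exact cg_ne ((if_neg h2).symm.trans h1)
  · exact fun h1 => if_pos h1

/-- a proper subgroup of a finite `2`-group lies in a subgroup of index two -/
theorem exists_index_two [Finite G] (hG : IsPGroup 2 G) {H : Subgroup G} (hH : H ≠ ⊤) :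
    ∃ K : Subgroup G, K.index = 2 ∧ H ≤ K := by
  have hp : Fact (Nat.Prime 2) := ⟨Nat.prime_two⟩
  obtain ⟨n, hn⟩ := IsPGroup.iff_card.1 hG
  obtain ⟨k, hk⟩ := IsPGroup.iff_card.1 (hG.to_subgroup H)
  have hkn : k < n := by
    rcases lt_or_ge k n with h | h
    · exact h
    · exfalso
      apply hH
      apply Subgroup.eq_top_of_le_card
      rw [hn, hk]
      exact Nat.pow_le_pow_right (by norm_num) h
  obtain ⟨K, hK, hHK⟩ := Sylow.exists_subgroup_card_pow_prime_le (p := 2) (G := G) (n := k) (m := n - 1)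
    (by rw [hn]; exact pow_dvd_pow _ (by omega)) H hk (by omega)
  refine ⟨K, ?_, hHK⟩
  have h1 := K.card_mul_index
  have h2 : Nat.card G = 2 ^ (n - 1) * 2 := by
    rw [hn, ← pow_succ]
    congr 1
    omega
  have hK' : Nat.card K = 2 ^ (n - 1) := hK
  rw [hK', h2] at h1
  exact Nat.eq_of_mul_eq_mul_left (by positivity) h1

/-- the homomorphism `χ` -/
theorem exists_chi [Finite G] (hG : IsPGroup 2 G) (hab : ∃ a b : G, a * b ≠ b * a) {A : Type*} [CommGroup A]
    (det : G →* A) [IsCyclic A] (δ : A →* CC) (hδ : ∃ g, δ (det g) ≠ 1) (Z : Subgroup G)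
    (hZ : ∀ z ∈ Z, ∀ g, z * g = g * z) :
    ∃ (χ : G →* CC) (d e : G), det d = 1 ∧ χ d = cg ∧ δ (det e) = cg ∧ χ e = 1 ∧ ∀ z ∈ Z, χ z = 1 := by
  -- `x` with `det x` a generator of the range
  obtain ⟨a, ha⟩ := IsCyclic.exists_generator (α := det.range)
  obtain ⟨x, hx⟩ := a.2
  have hgen : ∀ g, ∃ k : ℤ, det (x ^ k) = det g := by
    intro g
    obtain ⟨k, hk⟩ := mem_zpowers_iff.1 (ha ⟨det g, g, rfl⟩)
    refine ⟨k, ?_⟩
    rw [map_zpow, hx]
    exact congrArg Subtype.val hk
  have hδx : δ (det x) = cg := by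
    apply cc_ne
    intro h
    obtain ⟨g, hg⟩ := hδ
    obtain ⟨k, hk⟩ := hgen g
    apply hg
    rw [← hk, map_zpow, map_zpow, h, one_zpow]
  -- the subgroup `⟨x⟩ Z`
  let H : Subgroup G := zpowers x ⊔ Z
  have hZn : Z.Normal := ⟨fun z hz g => by rw [← hZ z hz g, mul_inv_cancel_right]; exact hz⟩
  have hH : H ≠ ⊤ := by
    intro h
    obtain ⟨a, b, hab⟩ := hab
    apply hab
    have hform : ∀ g : G, ∃ (k : ℤ) (z : G), z ∈ Z ∧ g = x ^ k * z := by
      intro g
      have hg : g ∈ zpowers x ⊔ Z := by
        change g ∈ H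
        rw [h]
        exact mem_top g
      rw [← SetLike.mem_coe, mul_normal, Set.mem_mul] at hg
      obtain ⟨y, hy, z, hz, rfl⟩ := hg
      obtain ⟨k, rfl⟩ := mem_zpowers_iff.1 hy
      exact ⟨k, z, hz, rfl⟩
    obtain ⟨k, z, hz, rfl⟩ := hform a
    obtain ⟨l, y, hy, rfl⟩ := hform b
    have c1 : Commute (x ^ k) (x ^ l) := (Commute.refl x).zpow_zpow k l
    have cz : ∀ g, Commute z g := fun g => hZ z hz g
    have cy : ∀ g, Commute y g := fun g => hZ y hy g
    exact ((c1.mul_right (cy _).symm).mul_left (cz _)).eq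
  obtain ⟨K, hK, hHK⟩ := exists_index_two hG hH
  refine ⟨homOf K hK, ?_⟩
  have hχx : homOf K hK x = 1 := homOf_eq_one.2 (hHK (mem_sup_left (mem_zpowers x)))
  have hex : ∃ g : G, g ∉ K := by
    by_contra hcon
    push Not at hcon
    have h1 : K = ⊤ := eq_top_iff.2 fun g _ => hcon g
    rw [h1, index_top] at hK
    omega
  obtain ⟨g, hg⟩ := hex
  obtain ⟨k, hk⟩ := hgen g
  refine ⟨x ^ (-k) * g, x, ?_, ?_, hδx, hχx, fun z hz => homOf_eq_one.2 (hHK (mem_sup_right hz))⟩
  · rw [map_mul, zpow_neg, map_inv, hk, inv_mul_cancel]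
  · rw [map_mul, map_zpow, hχx, one_zpow, one_mul]
    exact cc_ne fun h => hg (homOf_eq_one.1 h)

end homs

section wr

variable {ι : Type*} {D : Type*} [Group D]

/-- permutation of the coordinates -/
def pact (ι : Type*) (D : Type*) [Group D] : Perm ι →* MulAut (ι → D) where
  toFun π :=
    { toFun := fun x i => x (π⁻¹ i)
      invFun := fun x i => x (π i)
      left_inv := fun x => by funext i; simp
      right_inv := fun x => by funext i; simp
      map_mul' := fun _ _ => rfl }
  map_one' := rfl
  map_mul' _ _ := rfl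

/-- the wreath product `D ≀ T` -/
abbrev W (D : Type*) [Group D] {ι : Type*} (T : Subgroup (Perm ι)) : Type _ :=
  (ι → D) ⋊[(pact ι D).comp T.subtype] T

variable {T : Subgroup (Perm ι)}

theorem mul_left' (w w' : W D T) (i : ι) : (w * w').left i = w.left i * w'.left ((w.right : Perm ι)⁻¹ i) := rfl

variable [Fintype ι] {A : Type*} [CommGroup A]

open Classical in
/-- product over the coordinates in `O` -/
noncomputable def po (f : D →* A) (O : Set ι) (w : W D T) : A := ∏ i, if i ∈ O then f (w.left i) else 1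

theorem po_mul (f : D →* A) (O : Set ι) (w w' : W D T) :
    po f O (w * w') = po f O w * po f {i | (w.right : Perm ι) i ∈ O} w' := by
  classical
  have h1 : po f {i | (w.right : Perm ι) i ∈ O} w' = ∏ i, if i ∈ O then f (w'.left ((w.right : Perm ι)⁻¹ i)) else 1 := by
    unfold po
    rw [← Equiv.prod_comp (w.right : Perm ι) (fun i => if i ∈ O then f (w'.left ((w.right : Perm ι)⁻¹ i)) else 1)]
    refine Finset.prod_congr rfl fun i _ => ?_
    simp
  rw [h1]
  unfold po
  rw [← Finset.prod_mul_distrib]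
  refine Finset.prod_congr rfl fun i _ => ?_
  rw [mul_left', map_mul]
  split_ifs
  · rfl
  · rw [one_mul]

theorem po_one (f : D →* A) (O : Set ι) : po f O (1 : W D T) = 1 := by
  unfold po
  refine Finset.prod_eq_one fun i _ => ?_
  have h : (1 : W D T).left i = 1 := rfl
  rw [h, map_one, ite_self]

/-- for an invariant set -/
noncomputable def poH (f : D →* A) (O : Set ι) (hO : ∀ π ∈ T, ∀ i, π i ∈ O ↔ i ∈ O) : W D T →* A where
  toFun := po f O
  map_one' := po_one f O
  map_mul' w w' := by
    rw [po_mul]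
    congr 2
    ext i
    exact hO _ w.right.2 i

/-- the determinant -/
noncomputable def detW (det : D →* A) : W D T →* A := poH det Set.univ fun _ _ _ => Iff.rfl

theorem detW_apply (det : D →* A) (w : W D T) : detW det w = ∏ i, det (w.left i) := by
  change po det Set.univ w = _
  unfold po
  exact Finset.prod_congr rfl fun i _ => if_pos (Set.mem_univ i)

theorem po_eq_one (f : D →* A) (O : Set ι) (w : W D T) (h : ∀ i, f (w.left i) = 1) : po f O w = 1 := by
  unfold po
  refine Finset.prod_eq_one fun i _ => ?_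
  rw [h, ite_self]

open Classical in
/-- `x` at the coordinate `i` -/
noncomputable def sgl (T : Subgroup (Perm ι)) (i : ι) (x : D) : W D T := ⟨Pi.mulSingle i x, 1⟩

theorem po_sgl (f : D →* A) (O : Set ι) (i : ι) (x : D) [Decidable (i ∈ O)] :
    po f O (sgl T i x) = if i ∈ O then f x else 1 := by
  classical
  unfold po sgl
  rw [Finset.prod_eq_single i]
  · simp only [Pi.mulSingle_eq_same]
  · intro j _ hj
    simp only
    rw [Pi.mulSingle_eq_of_ne hj, map_one, ite_self]
  · exact fun h => absurd (Finset.mem_univ i) h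

/-- the permutation `π` -/
def prm (D : Type*) [Group D] (π : T) : W D T := ⟨1, π⟩

theorem po_prm (f : D →* A) (O : Set ι) (π : T) : po f O (prm D π) = 1 :=
  po_eq_one f O _ fun _ => map_one f

/-- odd dimension -/
theorem rk_full [Nonempty ι] (hT : IsPGroup 2 T) (hT1 : T ≠ ⊥) (δ χ : D →* CC) {d e : D} (hd1 : δ d = 1)
    (hd : χ d = cg) (he1 : χ e = 1) (he : δ e = cg) :
    ∃ F : W D T →* Multiplicative (Fin 3 → ZMod 2), Function.Surjective F ∧
      ∀ w : W D T, w.right = 1 → (∀ i, δ (w.left i) = 1 ∧ χ (w.left i) = 1) → F w = 1 := by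
  classical
  have hfin : Finite T := inferInstance
  have hbot : (⊥ : Subgroup T) ≠ ⊤ := by
    intro h
    apply hT1
    refine (eq_bot_iff_forall T).2 fun x hx => ?_
    have h1 : (⟨x, hx⟩ : T) ∈ (⊥ : Subgroup T) := by
      rw [h]
      exact mem_top _
    exact congrArg Subtype.val (mem_bot.1 h1)
  obtain ⟨K, hK, -⟩ := exists_index_two hT hbot
  obtain ⟨t, ht⟩ : ∃ t : T, t ∉ K := by
    by_contra hcon
    push Not at hcon
    have h1 : K = ⊤ := eq_top_iff.2 fun g _ => hcon g
    rw [h1, index_top] at hK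
    omega
  let i0 : ι := Classical.arbitrary ι
  let τ : W D T →* CC := (homOf K hK).comp SemidirectProduct.rightHom
  have hτ : ∀ w : W D T, τ w = homOf K hK w.right := fun _ => rfl
  have ht' : homOf K hK t = cg := cc_ne fun h => ht (homOf_eq_one.1 h)
  have hDp : ∀ (f : D →* CC) (w : W D T), detW f w = po f Set.univ w := fun _ _ => rfl
  obtain ⟨F, hF, hF1⟩ := exists_rk3 (G := W D T) ![detW δ, detW χ, τ] ![sgl T i0 e, sgl T i0 d, prm D t] (by
    intro i j
    have s1 : ∀ (f : D →* CC) (x : D), po f Set.univ (sgl T i0 x) = f x := fun f x => by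
      rw [po_sgl, if_pos (Set.mem_univ _)]
    have s2 : ∀ x : D, τ (sgl T i0 x) = 1 := fun x => by
      rw [hτ]
      exact map_one _
    have s3 : τ (prm D t) = cg := ht'
    fin_cases i <;> fin_cases j <;>
      simp [hDp, s1, s2, s3, po_prm, hd1, hd, he1, he])
  refine ⟨F, hF, fun w hw h => hF1 w fun i => ?_⟩
  fin_cases i
  · exact po_eq_one _ _ _ fun i => (h i).1
  · exact po_eq_one _ _ _ fun i => (h i).2
  · change τ w = 1
    rw [hτ, hw, map_one]

theorem po_mul_compl (f : D →* A) (O : Set ι) (w : W D T) : po f O w * po f Oᶜ w = po f Set.univ w := by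
  classical
  unfold po
  rw [← Finset.prod_mul_distrib]
  refine Finset.prod_congr rfl fun i _ => ?_
  by_cases h : i ∈ O <;> simp [h]

theorem po_comp {B : Type*} [CommGroup B] (g : A →* B) (f : D →* A) (w : W D T) :
    po (g.comp f) Set.univ w = g (detW f w) := by
  rw [detW_apply, map_prod]
  unfold po
  exact Finset.prod_congr rfl fun i _ => if_pos (Set.mem_univ i)

theorem po_mul_one (f : D →* A) (O : Set ι) (w w' : W D T) (h : (w.right : Perm ι) = 1) :
    po f O (w * w') = po f O w * po f O w' := by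
  rw [po_mul, h]
  rfl

/-- even dimension -/
theorem rk_ker [Nontrivial ι] (hT : IsPGroup 2 T) (det : D →* A) (δ : A →* CC) (χ : D →* CC) {d e : D}
    (hd1 : det d = 1) (hd : χ d = cg) (he1 : χ e = 1) (he : δ (det e) = cg) :
    ∃ F : (detW (T := T) det).ker →* Multiplicative (Fin 3 → ZMod 2), Function.Surjective F ∧
      ∀ w : (detW (T := T) det).ker, w.1.right = 1 →
        (∀ i, δ (det (w.1.left i)) = 1 ∧ χ (w.1.left i) = 1) → F w = 1 := by
  classical
  have hfin : Finite T := inferInstance
  have hee : χ e⁻¹ = 1 := by rw [map_inv, he1, inv_one]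
  have hdd : δ (det d) = 1 := by rw [hd1, map_one]
  let i0 : ι := Classical.arbitrary ι
  have hk1 : ∀ i, detW det (sgl T i d) = 1 := fun i => by
    change po det Set.univ _ = 1
    rw [po_sgl, if_pos (Set.mem_univ _), hd1]
  have hk2 : ∀ i j, detW det (sgl T i e * sgl T j e⁻¹) = 1 := fun i j => by
    rw [map_mul]
    change po det Set.univ _ * po det Set.univ _ = 1
    rw [po_sgl, if_pos (Set.mem_univ _), po_sgl, if_pos (Set.mem_univ _), map_inv, mul_inv_cancel]
  have hδ : ∀ x : D, (δ.comp det) x = δ (det x) := fun _ => rfl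
  by_cases htr : ∃ i1 : ι, ∀ t ∈ T, t i0 ≠ i1
  · -- the intransitive case
    obtain ⟨i1, hi1⟩ := htr
    let O : Set ι := {i | ∃ t ∈ T, t i0 = i}
    have hO : ∀ π ∈ T, ∀ i, π i ∈ O ↔ i ∈ O := by
      intro π hπ i
      constructor
      · rintro ⟨t, ht, h⟩
        refine ⟨π⁻¹ * t, T.mul_mem (T.inv_mem hπ) ht, ?_⟩
        rw [Perm.mul_apply, h]
        simp
      · rintro ⟨t, ht, rfl⟩
        exact ⟨π * t, T.mul_mem hπ ht, rfl⟩
    have hO' : ∀ π ∈ T, ∀ i, π i ∈ Oᶜ ↔ i ∈ Oᶜ := fun π hπ i => not_congr (hO π hπ i)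
    have h0 : i0 ∈ O := ⟨1, T.one_mem, rfl⟩
    have h1 : i1 ∉ O := by
      rintro ⟨t, ht, h⟩
      exact hi1 t ht h
    have h0' : i0 ∉ Oᶜ := fun h => h h0
    have h1' : i1 ∈ Oᶜ := h1
    have e0 : ∀ (f : D →* CC) x, po f O (sgl T i0 x) = f x := fun f x => by rw [po_sgl, if_pos h0]
    have e1 : ∀ (f : D →* CC) x, po f O (sgl T i1 x) = 1 := fun f x => by rw [po_sgl, if_neg h1]
    have e0' : ∀ (f : D →* CC) x, po f Oᶜ (sgl T i0 x) = 1 := fun f x => by rw [po_sgl, if_neg h0']
    have e1' : ∀ (f : D →* CC) x, po f Oᶜ (sgl T i1 x) = f x := fun f x => by rw [po_sgl, if_pos h1']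
    have em : ∀ (f : D →* CC) (P : Set ι) (x y : D), po f P (sgl T i0 x * sgl T i1 y) =
        po f P (sgl T i0 x) * po f P (sgl T i1 y) := fun f P x y => po_mul_one f P _ _ rfl
    obtain ⟨F, hF, hF1⟩ := exists_rk3 (G := (detW (T := T) det).ker)
      ![(poH χ O hO).comp (detW (T := T) det).ker.subtype, (poH χ Oᶜ hO').comp (detW (T := T) det).ker.subtype,
        (poH (δ.comp det) O hO).comp (detW (T := T) det).ker.subtype]
      ![⟨sgl T i0 d, hk1 i0⟩, ⟨sgl T i1 d, hk1 i1⟩, ⟨sgl T i0 e * sgl T i1 e⁻¹, hk2 i0 i1⟩] (by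
      have c1 : ∀ w : (detW (T := T) det).ker, ((poH χ O hO).comp (detW (T := T) det).ker.subtype) w =
        po χ O w.1 := fun _ => rfl
      have c2 : ∀ w : (detW (T := T) det).ker, ((poH χ Oᶜ hO').comp (detW (T := T) det).ker.subtype) w =
        po χ Oᶜ w.1 := fun _ => rfl
      have c3 : ∀ w : (detW (T := T) det).ker, ((poH (δ.comp det) O hO).comp (detW (T := T) det).ker.subtype) w =
        po (δ.comp det) O w.1 := fun _ => rfl
      intro i j
      fin_cases i
      · fin_cases j
        · exact (c1 _).trans ((e0 _ _).trans hd)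
        · exact (c1 _).trans (e1 _ _)
        · exact (c1 _).trans ((em _ _ _ _).trans (by rw [e0, e1, he1, one_mul]; rfl))
      · fin_cases j
        · exact (c2 _).trans (e0' _ _)
        · exact (c2 _).trans ((e1' _ _).trans hd)
        · exact (c2 _).trans ((em _ _ _ _).trans (by rw [e0', e1', hee, one_mul]; rfl))
      · fin_cases j
        · exact (c3 _).trans ((e0 _ _).trans hdd)
        · exact (c3 _).trans (e1 _ _)
        · exact (c3 _).trans ((em _ _ _ _).trans (by rw [e0, e1, mul_one, hδ]; exact he)))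
    refine ⟨F, hF, fun w hw h => hF1 w fun i => ?_⟩
    fin_cases i
    · exact po_eq_one _ _ _ fun i => (h i).2
    · exact po_eq_one _ _ _ fun i => (h i).2
    · exact po_eq_one _ _ _ fun i => (h i).1
  · -- the transitive case
    push Not at htr
    let K0 : Subgroup T :=
      { carrier := {t | (t : Perm ι) i0 = i0}
        one_mem' := rfl
        mul_mem' := fun {a b} ha hb => by
          have ha' : (a : Perm ι) i0 = i0 := ha
          have hb' : (b : Perm ι) i0 = i0 := hb
          change (a : Perm ι) ((b : Perm ι) i0) = i0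
          rw [hb', ha']
        inv_mem' := fun {a} ha => by
          have ha' : (a : Perm ι) i0 = i0 := ha
          change (a : Perm ι)⁻¹ i0 = i0
          rw [Perm.inv_eq_iff_eq]
          exact ha'.symm }
    have hK0 : K0 ≠ ⊤ := by
      intro h
      obtain ⟨i1, hi1⟩ := exists_ne i0
      obtain ⟨t, ht, h1⟩ := htr i1
      have h2 : (⟨t, ht⟩ : T) ∈ K0 := by
        rw [h]
        exact mem_top _
      exact hi1 (h1.symm.trans h2)
    obtain ⟨K, hK, hle⟩ := exists_index_two hT hK0
    obtain ⟨t, ht⟩ : ∃ t : T, t ∉ K := by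
      by_contra hcon
      push Not at hcon
      have h1 : K = ⊤ := eq_top_iff.2 fun g _ => hcon g
      rw [h1, index_top] at hK
      omega
    let O : Set ι := {i | ∃ s ∈ K, (s : Perm ι) i0 = i}
    have hO1 : ∀ s : T, (s : Perm ι) i0 ∈ O ↔ s ∈ K := by
      intro s
      constructor
      · rintro ⟨r, hr, h⟩
        have h1 : r⁻¹ * s ∈ K0 := by
          change (r : Perm ι)⁻¹ ((s : Perm ι) i0) = i0
          rw [← h]
          simp
        have h2 := K.mul_mem hr (hle h1)
        rwa [mul_inv_cancel_left] at h2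
      · exact fun h => ⟨s, h, rfl⟩
    have hO2 : ∀ (s : T) i, ((s : Perm ι) i ∈ O ↔ (s ∈ K ↔ i ∈ O)) := by
      intro s i
      obtain ⟨r, hr, rfl⟩ := htr i
      have h1 := hO1 (s * ⟨r, hr⟩)
      rw [mul_mem_iff_of_index_two hK] at h1
      have h2 := hO1 ⟨r, hr⟩
      exact h1.trans (iff_congr Iff.rfl h2.symm)
    have h0 : i0 ∈ O := ⟨1, K.one_mem, rfl⟩
    let i1 : ι := (t : Perm ι) i0
    have h1 : i1 ∉ O := fun h => ht ((hO1 t).1 h)
    have hcomp : ∀ w : W D T, detW det w = 1 → po (δ.comp det) Oᶜ w = po (δ.comp det) O w := by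
      intro w hw
      have h2 := po_mul_compl (δ.comp det) O w
      rw [po_comp, hw, map_one] at h2
      have h3 := cc_sq (po (δ.comp det) O w)
      exact mul_left_cancel (h2.trans h3.symm)
    let f2 : (detW (T := T) det).ker →* CC := MonoidHom.mk' (fun w => po (δ.comp det) O w.1) (by
      intro w w'
      change po (δ.comp det) O (w.1 * w'.1) = _
      rw [po_mul]
      congr 1
      by_cases h : w.1.right ∈ K
      · have h2 : {i | (w.1.right : Perm ι) i ∈ O} = O := by
          ext i
          exact (hO2 _ i).trans (by simp [h])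
        rw [h2]
      · have h2 : {i | (w.1.right : Perm ι) i ∈ O} = Oᶜ := by
          ext i
          exact (hO2 _ i).trans (by simp [h])
        rw [h2, hcomp _ w'.2])
    let τ : W D T →* CC := (homOf K hK).comp SemidirectProduct.rightHom
    have e0 : ∀ (f : D →* CC) x, po f O (sgl T i0 x) = f x := fun f x => by rw [po_sgl, if_pos h0]
    have e1 : ∀ (f : D →* CC) x, po f O (sgl T i1 x) = 1 := fun f x => by rw [po_sgl, if_neg h1]
    have eu : ∀ (f : D →* CC) i x, po f Set.univ (sgl T i x) = f x := fun f i x => by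
      rw [po_sgl, if_pos (Set.mem_univ _)]
    have em : ∀ (f : D →* CC) (P : Set ι) (x y : D), po f P (sgl T i0 x * sgl T i1 y) =
        po f P (sgl T i0 x) * po f P (sgl T i1 y) := fun f P x y => po_mul_one f P _ _ rfl
    have hkt : detW det (prm D t) = 1 := by
      rw [detW_apply]
      exact Finset.prod_eq_one fun i _ => map_one det
    obtain ⟨F, hF, hF1⟩ := exists_rk3 (G := (detW (T := T) det).ker)
      ![τ.comp (detW (T := T) det).ker.subtype, (detW χ).comp (detW (T := T) det).ker.subtype, f2]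
      ![⟨prm D t, hkt⟩, ⟨sgl T i0 d, hk1 i0⟩, ⟨sgl T i0 e * sgl T i1 e⁻¹, hk2 i0 i1⟩] (by
      have c1 : ∀ w : (detW (T := T) det).ker, (τ.comp (detW (T := T) det).ker.subtype) w =
        homOf K hK w.1.right := fun _ => rfl
      have c2 : ∀ w : (detW (T := T) det).ker, ((detW χ).comp (detW (T := T) det).ker.subtype) w =
        po χ Set.univ w.1 := fun _ => rfl
      have c3 : ∀ w : (detW (T := T) det).ker, f2 w = po (δ.comp det) O w.1 := fun _ => rfl
      intro i j
      fin_cases i
      · fin_cases j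
        · exact (c1 _).trans (cc_ne fun h => ht (homOf_eq_one.1 h))
        · exact (c1 _).trans (map_one _)
        · exact (c1 _).trans (map_one _)
      · fin_cases j
        · exact (c2 _).trans (po_prm _ _ _)
        · exact (c2 _).trans ((eu _ _ _).trans hd)
        · exact (c2 _).trans ((em _ _ _ _).trans (by rw [eu, eu, he1, hee, one_mul]; rfl))
      · fin_cases j
        · exact (c3 _).trans (po_prm _ _ _)
        · exact (c3 _).trans ((e0 _ _).trans hdd)
        · exact (c3 _).trans ((em _ _ _ _).trans (by rw [e0, e1, mul_one, hδ]; exact he)))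
    refine ⟨F, hF, fun w hw h => hF1 w fun i => ?_⟩
    fin_cases i
    · change homOf K hK w.1.right = 1
      rw [hw, map_one]
    · exact po_eq_one _ _ _ fun i => (h i).2
    · exact po_eq_one _ _ _ fun i => (h i).1

end wr

end Cfsg.Agent.H466.K547
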